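import Cfsg.Agent.H528.ClassSize
import Cfsg.Agent.PermutationGroups.ZassEnd

/-!
# Simple groups of order 60 or 504 whose elements have prime power order

`Good E`: `E` is simple of order 60 or 504, all elements have prime power order and the Sylow subgroups are
commutative. Centralizers, class sizes, the action on the Sylow 2-subgroups, and exclusion of proper overgroups
when all class sizes have at most two prime divisors.
-/

set_option autoImplicit false
set_option linter.style.haveILetI false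

namespace Cfsg.Agent.H528.CP

open Subgroup Cfsg.Agent.H528.ClassSize

/-- `E` is simple of order 60 or 504 with commutative Sylow subgroups and elements of prime power order. -/
structure Good (E : Type*) [Group E] : Prop where
  simple : IsSimpleGroup E
  cp : ∀ x : E, ∃ v k : ℕ, v.Prime ∧ orderOf x = v ^ k
  ab : ∀ (v : ℕ) [Fact v.Prime] (P : Sylow v E), ∀ a ∈ P, ∀ b ∈ P, a * b = b * a
  card : Nat.card E = 60 ∨ Nat.card E = 504

variable {E : Type*} [Group E]

theorem Good.finite (h : Good E) : Finite E := by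
  apply Nat.finite_of_card_ne_zero
  rcases h.card with h1 | h1 <;> rw [h1] <;> norm_num

theorem Good.congr {E' : Type*} [Group E'] (h : Good E) (e : E ≃* E') : Good E' where
  simple := by
    have := h.simple
    have : Nontrivial E' := e.symm.toEquiv.nontrivial
    exact IsSimpleGroup.isSimpleGroup_of_surjective e.toMonoidHom e.surjective
  cp := fun x => by
    obtain ⟨v, k, hv, h1⟩ := h.cp (e.symm x)
    refine ⟨v, k, hv, ?_⟩
    rw [← h1]
    exact (MulEquiv.orderOf_eq e.symm x).symm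
  ab := fun v _ P a ha b hb => by
    have hP : IsPGroup v ((P : Subgroup E').map e.symm.toMonoidHom) := P.isPGroup'.map _
    obtain ⟨Q, hQ⟩ := hP.exists_le_sylow
    have h1 := h.ab v Q (e.symm a) (hQ ⟨a, ha, rfl⟩) (e.symm b) (hQ ⟨b, hb, rfl⟩)
    rw [← map_mul, ← map_mul] at h1
    exact e.symm.injective h1
  card := by
    rw [← Nat.card_congr e.toEquiv]
    exact h.card

/-- The centralizer of a nonidentity element of a Sylow subgroup is that Sylow subgroup. -/
theorem Good.cent_eq (h : Good E) {v : ℕ} [hv : Fact v.Prime] (P : Sylow v E) {x : E} (hx : x ∈ P)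
    (hx1 : x ≠ 1) : Subgroup.centralizer ({x} : Set E) = (P : Subgroup E) := by
  have := h.finite
  have hle : (P : Subgroup E) ≤ Subgroup.centralizer ({x} : Set E) := fun y hy =>
    mem_cent.2 (h.ab v P y hy x hx)
  have hp : IsPGroup v (Subgroup.centralizer ({x} : Set E)) := by
    rw [IsPGroup.iff_orderOf]
    rintro ⟨y, hy⟩
    rw [mem_cent] at hy
    obtain ⟨j, hj⟩ := (IsPGroup.iff_orderOf.1 P.isPGroup') ⟨x, hx⟩
    rw [Subgroup.orderOf_mk] at hj
    obtain ⟨w, k, hw, hk⟩ := h.cp y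
    rw [Subgroup.orderOf_mk]
    by_cases hwv : w = v
    · exact ⟨k, by rw [hk, hwv]⟩
    · rcases Nat.eq_zero_or_pos k with hk0 | hk0
      · exact ⟨0, by rw [hk, hk0, pow_zero, pow_zero]⟩
      exfalso
      have hj0 : j ≠ 0 := by
        rintro rfl
        rw [pow_zero, orderOf_eq_one_iff] at hj
        exact hx1 hj
      have hcop : (orderOf y).Coprime (orderOf x) := by
        rw [hk, hj]
        exact Nat.Coprime.pow _ _ ((Nat.coprime_primes hw hv.out).2 hwv)
      have hord : orderOf (y * x) = w ^ k * v ^ j := by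
        rw [(show Commute y x from hy).orderOf_mul_eq_mul_orderOf_of_coprime hcop, hk, hj]
      obtain ⟨u, m, hu, hm⟩ := h.cp (y * x)
      rw [hord] at hm
      have h1 : w ∣ u ^ m := hm ▸ (dvd_mul_of_dvd_left (dvd_pow_self w hk0.ne') _)
      have h2 : v ∣ u ^ m := hm ▸ (dvd_mul_of_dvd_right (dvd_pow_self v hj0) _)
      have h3 := (Nat.prime_dvd_prime_iff_eq hw hu).1 (hw.dvd_of_dvd_pow h1)
      have h4 := (Nat.prime_dvd_prime_iff_eq hv.out hu).1 (hv.out.dvd_of_dvd_pow h2)
      exact hwv (h3.trans h4.symm)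
  exact P.is_maximal' hp hle

/-- Other primes divide the class size. -/
theorem Good.dvd_ci (h : Good E) {v : ℕ} [hv : Fact v.Prime] (P : Sylow v E) {x : E} (hx : x ∈ P)
    (hx1 : x ≠ 1) {w : ℕ} (hw : w.Prime) (hwv : w ≠ v) (hwE : w ∣ Nat.card E) : w ∣ ci x := by
  have := h.finite
  rw [ci_def, h.cent_eq P hx hx1]
  rw [← Subgroup.card_mul_index (P : Subgroup E), hw.dvd_mul] at hwE
  rcases hwE with h1 | h1
  · exfalso
    obtain ⟨n, hn⟩ := IsPGroup.iff_card.1 P.isPGroup'
    rw [hn] at h1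
    exact hwv ((Nat.prime_dvd_prime_iff_eq hw hv.out).1 (hw.dvd_of_dvd_pow h1))
  · exact h1

/-- Three primes divide the order. -/
theorem Good.primes (h : Good E) : 2 ∣ Nat.card E ∧ 3 ∣ Nat.card E ∧
    (5 ∣ Nat.card E ∨ 7 ∣ Nat.card E) := by
  rcases h.card with h1 | h1 <;> rw [h1] <;> norm_num

theorem Good.exists_sylow_ne (h : Good E) {v : ℕ} (hv : v.Prime) (hd : v ∣ Nat.card E) :
    ∃ (_ : Fact v.Prime) (P : Sylow v E) (x : E), x ∈ P ∧ x ≠ 1 := by
  have := h.finite
  haveI : Fact v.Prime := ⟨hv⟩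
  obtain ⟨x, hx⟩ := exists_prime_orderOf_dvd_card' v hd
  have hp : IsPGroup v (Subgroup.zpowers x) := by
    apply IsPGroup.of_card (n := 1)
    rw [Nat.card_zpowers, hx, pow_one]
  obtain ⟨P, hP⟩ := hp.exists_le_sylow
  refine ⟨this, P, x, hP (Subgroup.mem_zpowers x), ?_⟩
  rintro rfl
  rw [orderOf_one] at hx
  exact hv.one_lt.ne hx

/-- For every prime `v` there is a class whose size has two prime divisors different from `v`. -/
theorem Good.exists_two (h : Good E) {v : ℕ} (hv : v.Prime) :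
    ∃ (x : E) (w₁ w₂ : ℕ), x ≠ 1 ∧ w₁.Prime ∧ w₂.Prime ∧ w₁ ≠ w₂ ∧ w₁ ≠ v ∧ w₂ ≠ v ∧
      w₁ ∣ ci x ∧ w₂ ∣ ci x := by
  obtain ⟨h2, h3, h57⟩ := h.primes
  obtain ⟨r, hr, hr2, hr3, hrE⟩ : ∃ r : ℕ, r.Prime ∧ r ≠ 2 ∧ r ≠ 3 ∧ r ∣ Nat.card E := by
    rcases h57 with h5 | h7
    · exact ⟨5, by norm_num, by norm_num, by norm_num, h5⟩
    · exact ⟨7, by norm_num, by norm_num, by norm_num, h7⟩
  by_cases hv3 : v = 3
  · subst hv3
    obtain ⟨_, P, x, hx, hx1⟩ := h.exists_sylow_ne Nat.prime_three h3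
    exact ⟨x, 2, r, hx1, Nat.prime_two, hr, hr2.symm, by norm_num, hr3,
      h.dvd_ci P hx hx1 Nat.prime_two (by norm_num) h2, h.dvd_ci P hx hx1 hr hr3 hrE⟩
  · by_cases hvr : v = r
    · subst hvr
      obtain ⟨_, P, x, hx, hx1⟩ := h.exists_sylow_ne hv hrE
      exact ⟨x, 2, 3, hx1, Nat.prime_two, Nat.prime_three, by norm_num, hr2.symm, hr3.symm,
        h.dvd_ci P hx hx1 Nat.prime_two hr2.symm h2,
        h.dvd_ci P hx hx1 Nat.prime_three hr3.symm h3⟩
    · obtain ⟨_, P, x, hx, hx1⟩ := h.exists_sylow_ne Nat.prime_two h2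
      exact ⟨x, 3, r, hx1, Nat.prime_three, hr, hr3.symm, fun h => hv3 h.symm,
        fun h => hvr h.symm, h.dvd_ci P hx hx1 Nat.prime_three (by norm_num) h3,
        h.dvd_ci P hx hx1 hr hr2 hrE⟩

/-! ### Step A: a normal `p`-subgroup is central -/

theorem exists_mem_centralizer {G : Type*} [Group G] [Finite G] (hH : Hyp G) (N : Subgroup G)
    [N.Normal] {v : ℕ} [hv : Fact v.Prime] (hN : IsPGroup v N) (hE : Good (G ⧸ N)) :
    ∃ x : G, x ∉ N ∧ x ∈ Subgroup.centralizer (N : Set G) := by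
  obtain ⟨y, w₁, w₂, hy1, hw₁, hw₂, hw, h1, h2, hd1, hd2⟩ := hE.exists_two hv.out
  obtain ⟨x, rfl⟩ := QuotientGroup.mk'_surjective N y
  have hxN : x ∉ N := by
    intro h
    apply hy1
    rw [QuotientGroup.mk'_apply, QuotientGroup.eq_one_iff]
    exact h
  have hdv := ci_map_dvd (QuotientGroup.mk' N) (QuotientGroup.mk'_surjective N) x
  have hnv : ¬ v ∣ ci x := fun h3 =>
    hH.not_three x hw₁ hw₂ hv.out hw h1 h2 (hd1.trans hdv) (hd2.trans hdv) h3
  obtain ⟨P, hP⟩ := exists_sylow_le_cent v x hnv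
  refine ⟨x, hxN, ?_⟩
  rw [Subgroup.mem_centralizer_iff]
  intro n hn
  exact mem_cent.1 (hP (le_sylow N hN P hn))

theorem le_center {G : Type*} [Group G] [Finite G] (hH : Hyp G) (N : Subgroup G)
    [N.Normal] {v : ℕ} [hv : Fact v.Prime] (hN : IsPGroup v N) (hNc : ∀ a ∈ N, ∀ b ∈ N, a * b = b * a)
    (hE : Good (G ⧸ N)) : N ≤ Subgroup.center G := by
  obtain ⟨x, hxN, hx⟩ := exists_mem_centralizer hH N hN hE
  set C := Subgroup.centralizer (N : Set G) with hC
  have hCn : C.Normal := inferInstance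
  have hNC : N ≤ C := fun a ha => Subgroup.mem_centralizer_iff.2 (fun b hb => hNc b hb a ha)
  have := hE.simple
  have hM : (C.map (QuotientGroup.mk' N)).Normal :=
    Subgroup.Normal.map hCn _ (QuotientGroup.mk'_surjective N)
  have htop : C.map (QuotientGroup.mk' N) = ⊤ := by
    rcases hM.eq_bot_or_eq_top with h1 | h1
    · exfalso
      have h2 : QuotientGroup.mk' N x ∈ C.map (QuotientGroup.mk' N) := ⟨x, hx, rfl⟩
      rw [h1, Subgroup.mem_bot, QuotientGroup.mk'_apply, QuotientGroup.eq_one_iff] at h2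
      exact hxN h2
    · exact h1
  intro n hn
  rw [Subgroup.mem_center_iff]
  intro g
  have h1 : QuotientGroup.mk' N g ∈ C.map (QuotientGroup.mk' N) := htop ▸ Subgroup.mem_top _
  obtain ⟨c, hc, hcg⟩ := h1
  have h2 : c⁻¹ * g ∈ N := by
    rw [QuotientGroup.mk'_apply, QuotientGroup.mk'_apply] at hcg
    exact QuotientGroup.eq.1 hcg
  have h3 : g ∈ C := by
    have h4 : g = c * (c⁻¹ * g) := by group
    rw [h4]
    exact C.mul_mem hc (hNC h2)
  exact (Subgroup.mem_centralizer_iff.1 h3 n hn).symm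

/-! ### Step B: no perfect central extension -/

theorem no_perfect_central {G : Type*} [Group G] [Finite G] (hH : Hyp G) (hperf : commutator G = ⊤)
    (N : Subgroup G) [N.Normal] {v : ℕ} [hv : Fact v.Prime] (hN : IsPGroup v N) (hN1 : N ≠ ⊥)
    (hNz : N ≤ Subgroup.center G) (hE : Good (G ⧸ N)) : False := by
  obtain ⟨P⟩ : Nonempty (Sylow v G) := inferInstance
  have hNP : N ≤ (P : Subgroup G) := le_sylow N hN P
  set f := QuotientGroup.mk' N with hf
  have hfs : Function.Surjective f := QuotientGroup.mk'_surjective N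
  have key : ∀ a ∈ P, ∀ b ∈ P, a * b = b * a := by
    intro a ha b hb
    by_cases haN : a ∈ N
    · exact (Subgroup.mem_center_iff.1 (hNz haN) b).symm
    have ha1 : f a ≠ 1 := by
      intro h
      rw [hf, QuotientGroup.mk'_apply, QuotientGroup.eq_one_iff] at h
      exact haN h
    have haP : f a ∈ (P.mapSurjective hfs : Sylow v (G ⧸ N)) := ⟨a, ha, rfl⟩
    have hcent := hE.cent_eq (P.mapSurjective hfs) haP ha1
    -- two other primes divide the class size
    have hnv : ¬ v ∣ ci a := by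
      intro hva
      have hdv := ci_map_dvd f hfs a
      obtain ⟨h2, h3, h57⟩ := hE.primes
      obtain ⟨r, hr, hr2, hr3, hrE⟩ : ∃ r : ℕ, r.Prime ∧ r ≠ 2 ∧ r ≠ 3 ∧ r ∣ Nat.card (G ⧸ N) := by
        rcases h57 with h5 | h7
        · exact ⟨5, by norm_num, by norm_num, by norm_num, h5⟩
        · exact ⟨7, by norm_num, by norm_num, by norm_num, h7⟩
      have hd : ∀ w : ℕ, w.Prime → w ≠ v → w ∣ Nat.card (G ⧸ N) → w ∣ ci a := fun w hw hwv hwE =>
        (hE.dvd_ci (P.mapSurjective hfs) haP ha1 hw hwv hwE).trans hdv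
      by_cases hv2 : v = 2
      · exact hH.not_three a Nat.prime_three hr hv.out hr3.symm (by rw [hv2]; norm_num)
          (by rw [hv2]; exact hr2) (hd 3 Nat.prime_three (by rw [hv2]; norm_num) h3)
          (hd r hr (by rw [hv2]; exact hr2) hrE) hva
      · by_cases hv3 : v = 3
        · exact hH.not_three a Nat.prime_two hr hv.out hr2.symm (fun h => hv2 h.symm)
            (by rw [hv3]; exact hr3) (hd 2 Nat.prime_two (fun h => hv2 h.symm) h2)
            (hd r hr (by rw [hv3]; exact hr3) hrE) hva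
        · exact hH.not_three a Nat.prime_two Nat.prime_three hv.out (by norm_num)
            (fun h => hv2 h.symm) (fun h => hv3 h.symm)
            (hd 2 Nat.prime_two (fun h => hv2 h.symm) h2)
            (hd 3 Nat.prime_three (fun h => hv3 h.symm) h3) hva
    obtain ⟨Q, hQ⟩ := exists_sylow_le_cent v a hnv
    have hQP : (Q : Subgroup G) ≤ (P : Subgroup G) := by
      intro y hy
      have h1 : f y ∈ Subgroup.centralizer ({f a} : Set (G ⧸ N)) := by
        rw [mem_cent, ← map_mul, ← map_mul, mem_cent.1 (hQ hy)]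
      rw [hcent] at h1
      obtain ⟨z, hz, hzy⟩ := h1
      have h2 : z⁻¹ * y ∈ N := by
        rw [hf, QuotientGroup.mk'_apply, QuotientGroup.mk'_apply] at hzy
        exact QuotientGroup.eq.1 hzy
      have h4 : y = z * (z⁻¹ * y) := by group
      rw [h4]
      exact (P : Subgroup G).mul_mem hz (hNP h2)
    have hPQ : (P : Subgroup G) = Q := Q.is_maximal' P.isPGroup' hQP
    have hb' : b ∈ (Q : Subgroup G) := hPQ ▸ hb
    exact (mem_cent.1 (hQ hb')).symm
  obtain ⟨x, hx⟩ : ∃ x : N, orderOf x = v := by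
    have hcard : v ∣ Nat.card N := by
      obtain ⟨n, hn⟩ := IsPGroup.iff_card.1 hN
      rcases Nat.eq_zero_or_pos n with h0 | h0
      · exact absurd (Subgroup.card_eq_one.1 (by rw [hn, h0, pow_zero])) hN1
      · rw [hn]; exact dvd_pow_self v h0.ne'
    exact exists_prime_orderOf_dvd_card' v hcard
  haveI : IsMulCommutative (P : Subgroup G) :=
    ⟨⟨fun a b => Subtype.ext (key a a.2 b b.2)⟩⟩
  exact Cfsg.Agent.PermutationGroups.ZassEnd.no_central hperf P (x : G) (hNz x.2)
    (by rw [← hx]; exact Subgroup.orderOf_coe x)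

end Cfsg.Agent.H528.CP
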