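import Cfsg.Agent.H528.CPAut

/-!
# Groups whose class sizes have at most two prime divisors: reduction to the simple case
-/

set_option autoImplicit false
set_option linter.style.haveILetI false

namespace Cfsg.Agent.H528.CP

open Subgroup Cfsg.Agent.H528.ClassSize
open scoped commutatorElement

universe u

/-- A nontrivial solvable normal subgroup contains a nontrivial commutative normal `p`-subgroup. -/
theorem exists_normal_abelian {G : Type*} [Group G] [Finite G] (N : Subgroup G) [N.Normal]
    (hN : N ≠ ⊥) (hs : Group.IsSolvable N) :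
    ∃ (p : ℕ) (_ : Fact p.Prime) (V : Subgroup G), V.Normal ∧ V ≤ N ∧ V ≠ ⊥ ∧ IsPGroup p V ∧
      ∀ a ∈ V, ∀ b ∈ V, a * b = b * a := by
  classical
  obtain ⟨n, hn⟩ := hs.solvable
  have hex : ∃ n, derivedSeries N n = ⊥ := ⟨n, hn⟩
  set k := Nat.find hex with hk
  have hkb : derivedSeries N k = ⊥ := Nat.find_spec hex
  have hk0 : k ≠ 0 := by
    intro h0
    rw [h0, derivedSeries_zero] at hkb
    have : Nontrivial N := (Subgroup.nontrivial_iff_ne_bot N).2 hN
    exact top_ne_bot hkb
  obtain ⟨m, hm⟩ := Nat.exists_eq_succ_of_ne_zero hk0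
  have hmb : derivedSeries N m ≠ ⊥ := Nat.find_min hex (by rw [← hk, hm]; exact Nat.lt_succ_self m)
  have hcomm : ∀ a ∈ derivedSeries N m, ∀ b ∈ derivedSeries N m, a * b = b * a := by
    intro a ha b hb
    have h1 : ⁅a, b⁆ ∈ derivedSeries N (m + 1) := by
      rw [derivedSeries_succ]
      exact Subgroup.commutator_mem_commutator ha hb
    have h2 : derivedSeries N (m + 1) = ⊥ := by
      have : m + 1 = k := hm.symm
      rw [this]; exact hkb
    rw [h2, Subgroup.mem_bot] at h1
    exact commutatorElement_eq_one_iff_mul_comm.1 h1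
  set A : Subgroup G := (derivedSeries N m).map N.subtype with hA
  have hAn : A.Normal := by
    have : (derivedSeries N m).Characteristic := inferInstance
    infer_instance
  have hAN : A ≤ N := Subgroup.map_subtype_le _
  have hAc : ∀ a ∈ A, ∀ b ∈ A, a * b = b * a := by
    rintro _ ⟨a, ha, rfl⟩ _ ⟨b, hb, rfl⟩
    exact congrArg Subtype.val (hcomm a ha b hb)
  have hAb : A ≠ ⊥ := by
    intro h
    apply hmb
    rw [hA, Subgroup.map_eq_bot_iff, Subgroup.ker_subtype] at h
    exact le_bot_iff.1 h
  have hcard : Nat.card A ≠ 1 := fun h => hAb (Subgroup.card_eq_one.1 h)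
  obtain ⟨p, hp, hpd⟩ := Nat.exists_prime_and_dvd hcard
  haveI : Fact p.Prime := ⟨hp⟩
  let V : Subgroup G :=
    { carrier := {x | x ∈ A ∧ x ^ p = 1}
      one_mem' := ⟨A.one_mem, one_pow p⟩
      mul_mem' := by
        rintro a b ⟨ha, ha'⟩ ⟨hb, hb'⟩
        refine ⟨A.mul_mem ha hb, ?_⟩
        rw [(show Commute a b from hAc a ha b hb).mul_pow, ha', hb', mul_one]
      inv_mem' := by
        rintro a ⟨ha, ha'⟩
        exact ⟨A.inv_mem ha, by rw [inv_pow, ha', inv_one]⟩ }
  have hVA : V ≤ A := fun x hx => hx.1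
  refine ⟨p, inferInstance, V, ⟨?_⟩, hVA.trans hAN, ?_, ?_, fun a ha b hb => hAc a ha.1 b hb.1⟩
  · rintro x ⟨hx, hx'⟩ g
    refine ⟨hAn.conj_mem x hx g, ?_⟩
    rw [conj_pow, hx', mul_one, mul_inv_cancel]
  · obtain ⟨x, hx⟩ : ∃ x : A, orderOf x = p := exists_prime_orderOf_dvd_card' p hpd
    intro h
    have h1 : (x : G) ∈ V := by
      refine ⟨x.2, ?_⟩
      have h2 := pow_orderOf_eq_one x
      rw [hx] at h2
      exact congrArg Subtype.val h2
    rw [h, Subgroup.mem_bot] at h1
    rw [← Subgroup.orderOf_coe, h1, orderOf_one] at hx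
    exact hp.one_lt.ne hx
  · intro x
    refine ⟨1, ?_⟩
    rw [pow_one]
    exact Subtype.ext x.2.2

/-- A `Good` normal subgroup has trivial intersection with its centralizer. -/
theorem Good.inf_centralizer {G : Type*} [Group G] {S : Subgroup G}
    (h : Good S) : S ⊓ Subgroup.centralizer (S : Set G) = ⊥ := by
  rw [eq_bot_iff]
  rintro x ⟨hx, hxc⟩
  rw [Subgroup.mem_bot]
  by_contra hx1
  have := h.finite
  have hxc' : ∀ y : S, y * ⟨x, hx⟩ = ⟨x, hx⟩ * y := fun y =>
    Subtype.ext (Subgroup.mem_centralizer_iff.1 hxc y y.2)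
  have htop : Subgroup.centralizer ({(⟨x, hx⟩ : S)} : Set S) = ⊤ := by
    rw [eq_top_iff]
    intro y _
    exact mem_cent.2 (hxc' y)
  obtain ⟨v, k, hv, hk⟩ := h.cp ⟨x, hx⟩
  haveI : Fact v.Prime := ⟨hv⟩
  have hp : IsPGroup v (Subgroup.zpowers (⟨x, hx⟩ : S)) := by
    apply IsPGroup.of_card (n := k)
    rw [Nat.card_zpowers, hk]
  obtain ⟨P, hP⟩ := hp.exists_le_sylow
  have h1 := h.cent_eq P (hP (Subgroup.mem_zpowers _)) (fun h2 => hx1 (congrArg Subtype.val h2))
  rw [htop] at h1
  obtain ⟨n, hn⟩ := IsPGroup.iff_card.1 P.isPGroup'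
  rw [← h1, Subgroup.card_top] at hn
  obtain ⟨h2, h3, -⟩ := h.primes
  rw [hn] at h2 h3
  have e1 := (Nat.prime_dvd_prime_iff_eq Nat.prime_two hv).1 (Nat.prime_two.dvd_of_dvd_pow h2)
  have e2 := (Nat.prime_dvd_prime_iff_eq Nat.prime_three hv).1 (Nat.prime_three.dvd_of_dvd_pow h3)
  omega

/-- **Step D.** -/
theorem Good.split {G : Type*} [Group G] [Finite G] (hH : Hyp G) {S : Subgroup G} [hSn : S.Normal]
    (h : Good S) : Subgroup.center G ⊓ S = ⊥ ∧ Subgroup.center G ⊔ S = ⊤ := by
  set C := Subgroup.centralizer (S : Set G) with hCdef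
  have hinf := h.inf_centralizer
  rw [← hCdef] at hinf
  have hCn : C.Normal := inferInstance
  -- the quotient
  set f := QuotientGroup.mk' C with hf
  have hfs : Function.Surjective f := QuotientGroup.mk'_surjective C
  have hinj : Function.Injective (f.comp S.subtype) := by
    rw [injective_iff_map_eq_one]
    intro x hx
    have h1 : (x : G) ∈ C := by
      rw [MonoidHom.comp_apply, hf, QuotientGroup.mk'_apply, QuotientGroup.eq_one_iff] at hx
      exact hx
    have h2 : (x : G) ∈ S ⊓ C := ⟨x.2, h1⟩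
    rw [hinf, Subgroup.mem_bot] at h2
    exact Subtype.ext h2
  have hrange : (f.comp S.subtype).range = S.map f := by
    rw [MonoidHom.range_comp, Subgroup.range_subtype]
  have hSn' : (f.comp S.subtype).range.Normal := by
    rw [hrange]
    exact Subgroup.Normal.map hSn _ hfs
  have hgood : Good (f.comp S.subtype).range := h.congr (MonoidHom.ofInjective hinj)
  have hCbar : Subgroup.centralizer ((f.comp S.subtype).range : Set (G ⧸ C)) = ⊥ := by
    rw [eq_bot_iff]
    intro y hy
    obtain ⟨g, rfl⟩ := hfs y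
    rw [Subgroup.mem_bot, hf, QuotientGroup.mk'_apply, QuotientGroup.eq_one_iff, hCdef,
      Subgroup.mem_centralizer_iff]
    intro s hs
    have h1 : f s * f g = f g * f s := Subgroup.mem_centralizer_iff.1 hy (f s) ⟨⟨s, hs⟩, rfl⟩
    have h2 : (s * g)⁻¹ * (g * s) ∈ C := by
      rw [← map_mul, ← map_mul] at h1
      rw [hf, QuotientGroup.mk'_apply, QuotientGroup.mk'_apply] at h1
      exact QuotientGroup.eq.1 h1
    have h3 : (s * g)⁻¹ * (g * s) ∈ S := by
      have h4 : (s * g)⁻¹ * (g * s) = (g⁻¹ * s⁻¹ * g⁻¹⁻¹) * s := by group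
      rw [h4]
      exact S.mul_mem (hSn.conj_mem _ (S.inv_mem hs) g⁻¹) hs
    have h4 : (s * g)⁻¹ * (g * s) ∈ S ⊓ C := ⟨h3, h2⟩
    rw [hinf, Subgroup.mem_bot] at h4
    exact inv_mul_eq_one.1 h4
  have htop := Good.eq_top (hH.quotient C) hgood hCbar
  have hdec : ∀ g : G, ∃ s ∈ S, ∃ c ∈ C, g = s * c := by
    intro g
    have h1 : f g ∈ (f.comp S.subtype).range := htop ▸ Subgroup.mem_top _
    obtain ⟨s, hs⟩ := h1
    have h2 : (s : G)⁻¹ * g ∈ C := by
      rw [MonoidHom.comp_apply, hf, QuotientGroup.mk'_apply, QuotientGroup.mk'_apply] at hs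
      exact QuotientGroup.eq.1 hs
    exact ⟨s, s.2, _, h2, by group⟩
  have hCcomm : ∀ c ∈ C, ∀ s ∈ S, s * c = c * s := fun c hc s hs =>
    Subgroup.mem_centralizer_iff.1 hc s hs
  have hCZ : C ≤ Subgroup.center G := by
    intro c hc
    by_contra hcz
    have hci1 : ci c ≠ 1 := by
      intro h1
      apply hcz
      rw [ci_def, Subgroup.index_eq_one] at h1
      rw [Subgroup.mem_center_iff]
      intro g
      have h2 : g ∈ Subgroup.centralizer ({c} : Set G) := h1 ▸ Subgroup.mem_top g
      exact mem_cent.1 h2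
    obtain ⟨v, hv, hvd⟩ := Nat.exists_prime_and_dvd hci1
    obtain ⟨x, w₁, w₂, hx1, hw₁, hw₂, hw, h1, h2, hd1, hd2⟩ := h.exists_two hv
    have key : ∀ g : G, g * ((x : G) * c) = ((x : G) * c) * g → g * x = x * g ∧ g * c = c * g := by
      intro g hg
      obtain ⟨s, hs, d, hd, rfl⟩ := hdec g
      have e1 : d * (x : G) = x * d := (hCcomm d hd x x.2).symm
      have e2 : c * s = s * c := (hCcomm c hc s hs).symm
      have e3 : (s * x) * (d * c) = (x * s) * (c * d) := by
        calc (s * x) * (d * c) = s * (x * d) * c := by group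
          _ = s * (d * x) * c := by rw [e1]
          _ = (s * d) * (x * c) := by group
          _ = (x * c) * (s * d) := hg
          _ = x * (c * s) * d := by group
          _ = x * (s * c) * d := by rw [e2]
          _ = (x * s) * (c * d) := by group
      have e4 : ((x : G) * s)⁻¹ * (s * x) = (c * d) * (d * c)⁻¹ := by
        rw [inv_mul_eq_iff_eq_mul, ← mul_assoc, ← e3, mul_inv_cancel_right]
      have e5 : ((x : G) * s)⁻¹ * (s * x) ∈ S ⊓ C := by
        refine ⟨S.mul_mem (S.inv_mem (S.mul_mem x.2 hs)) (S.mul_mem hs x.2), ?_⟩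
        rw [e4]
        exact C.mul_mem (C.mul_mem hc hd) (C.inv_mem (C.mul_mem hd hc))
      rw [hinf, Subgroup.mem_bot] at e5
      have e6 : (x : G) * s = s * x := inv_mul_eq_one.1 e5
      rw [e5] at e4
      have e7 : c * d = d * c := mul_inv_eq_one.1 e4.symm
      constructor
      · calc s * d * x = s * (d * x) := by group
          _ = s * (x * d) := by rw [e1]
          _ = (s * x) * d := by group
          _ = (x * s) * d := by rw [e6]
          _ = x * (s * d) := by group
      · calc s * d * c = s * (d * c) := by group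
          _ = s * (c * d) := by rw [e7]
          _ = (s * c) * d := by group
          _ = (c * s) * d := by rw [e2]
          _ = c * (s * d) := by group
    have hle1 : Subgroup.centralizer ({(x : G) * c} : Set G) ≤
        Subgroup.centralizer ({(x : G)} : Set G) := fun g hg =>
      mem_cent.2 (key g (mem_cent.1 hg)).1
    have hle2 : Subgroup.centralizer ({(x : G) * c} : Set G) ≤
        Subgroup.centralizer ({c} : Set G) := fun g hg =>
      mem_cent.2 (key g (mem_cent.1 hg)).2
    have hxd : ci x ∣ ci ((x : G) * c) := (ci_subgroup_dvd S x).trans (ci_dvd_of_le hle1)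
    exact hH.not_three ((x : G) * c) hw₁ hw₂ hv hw h1 h2 (hd1.trans hxd) (hd2.trans hxd)
      (hvd.trans (ci_dvd_of_le hle2))
  constructor
  · rw [eq_bot_iff]
    rintro x ⟨hx, hxS⟩
    have h1 : x ∈ S ⊓ C := ⟨hxS, Subgroup.mem_centralizer_iff.2
      (fun s _ => (Subgroup.mem_center_iff.1 hx s))⟩
    rwa [hinf] at h1
  · rw [eq_top_iff]
    intro g _
    obtain ⟨s, hs, c, hc, rfl⟩ := hdec g
    exact Subgroup.mul_mem _ (Subgroup.mem_sup_right hs) (Subgroup.mem_sup_left (hCZ hc))

theorem Good.not_comm {S : Type*} [Group S] (h : Good S) (hall : ∀ a b : S, a * b = b * a) :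
    False := by
  obtain ⟨x, w₁, w₂, hx1, hw₁, hw₂, hw, h5, h6, hd1, hd2⟩ := h.exists_two Nat.prime_two
  have h7 : ci x = 1 := by
    rw [ci_def, Subgroup.index_eq_one, eq_top_iff]
    intro y _
    exact mem_cent.2 (hall y x)
  rw [h7] at hd1
  exact hw₁.one_lt.ne' (Nat.dvd_one.1 hd1)

theorem Good.commutator_eq_top {S : Type*} [Group S] (h : Good S) : commutator S = ⊤ := by
  have := h.simple
  rcases (inferInstance : (commutator S).Normal).eq_bot_or_eq_top with h3 | h3
  · exfalso
    apply h.not_comm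
    intro a b
    have h4 : ⁅a, b⁆ ∈ commutator S := by
      rw [commutator_def]
      exact Subgroup.commutator_mem_commutator (Subgroup.mem_top _) (Subgroup.mem_top _)
    rw [h3, Subgroup.mem_bot] at h4
    exact commutatorElement_eq_one_iff_mul_comm.1 h4
  · exact h3

/-- `S` is the commutator subgroup of `N = Z(N) S`. -/
theorem Good.commutator_eq {N : Type*} [Group N] {S : Subgroup N} [hSn : S.Normal] (h : Good S)
    (h2 : Subgroup.center N ⊔ S = ⊤) : commutator N = S := by
  apply le_antisymm
  · rw [commutator_def, Subgroup.commutator_le]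
    have hdec : ∀ x : N, ∃ z ∈ Subgroup.center N, ∃ s ∈ S, z * s = x := fun x => by
      have h5 : x ∈ Subgroup.center N ⊔ S := h2 ▸ Subgroup.mem_top x
      exact Subgroup.mem_sup_of_normal_right.1 h5
    intro a _ b _
    obtain ⟨z, hz, s, hs, rfl⟩ := hdec a
    obtain ⟨w, hw, t, ht, rfl⟩ := hdec b
    have e1 : ⁅z * s, w * t⁆ = s * t * s⁻¹ * t⁻¹ := by
      have c1 : ∀ g : N, z * g = g * z := fun g => (Subgroup.mem_center_iff.1 hz g).symm
      have c2 : ∀ g : N, w * g = g * w := fun g => (Subgroup.mem_center_iff.1 hw g).symm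
      rw [commutatorElement_def, mul_inv_rev, mul_inv_rev]
      calc z * s * (w * t) * (s⁻¹ * z⁻¹) * (t⁻¹ * w⁻¹)
          = (z * (s * (w * t) * s⁻¹)) * z⁻¹ * (t⁻¹ * w⁻¹) := by group
        _ = ((s * (w * t) * s⁻¹) * z) * z⁻¹ * (t⁻¹ * w⁻¹) := by rw [c1]
        _ = s * (w * (t * s⁻¹ * t⁻¹)) * w⁻¹ := by group
        _ = s * ((t * s⁻¹ * t⁻¹) * w) * w⁻¹ := by rw [c2]
        _ = s * t * s⁻¹ * t⁻¹ := by group
    rw [e1]
    exact S.mul_mem (S.mul_mem (S.mul_mem hs ht) (S.inv_mem hs)) (S.inv_mem ht)
  · intro x hx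
    have h3 : (⟨x, hx⟩ : S) ∈ commutator S := h.commutator_eq_top ▸ Subgroup.mem_top _
    have h4 : (commutator S).map S.subtype ≤ commutator N := by
      rw [_root_.commutator_def, _root_.commutator_def, Subgroup.map_commutator]
      exact Subgroup.commutator_mono le_top le_top
    exact h4 ⟨_, h3, rfl⟩

/-- The reduction to simple groups, for a class `Tgt` of `Good` groups closed under isomorphism. -/
theorem main (Tgt : ∀ (S : Type u) [Group S], Prop)
    (hcongr : ∀ (S S' : Type u) [Group S] [Group S'], (S ≃* S') → Tgt S → Tgt S')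
    (hgood : ∀ (S : Type u) [Group S], Tgt S → Good S)
    (hsimple : ∀ (S : Type u) [Group S] [Finite S] [IsSimpleGroup S], ¬ Group.IsSolvable S →
      Hyp S → Tgt S) (n : ℕ) :
    ∀ (G : Type u) [Group G] [Finite G], Nat.card G = n → Hyp G → ¬ Group.IsSolvable G →
      ∃ S : Subgroup G, S.Normal ∧ Subgroup.center G ⊓ S = ⊥ ∧ Subgroup.center G ⊔ S = ⊤ ∧
        Tgt S := by
  induction n using Nat.strong_induction_on with
  | _ n ih =>
  intro G _ _ hn hH hns
  by_cases hc : ∃ N : Subgroup G, N.Normal ∧ N ≠ ⊤ ∧ ¬ Group.IsSolvable N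
  · obtain ⟨N, hNn, hNt, hNs⟩ := hc
    have hlt : Nat.card N < n := by
      rw [← hn]
      exact lt_of_le_of_ne (Nat.le_of_dvd Nat.card_pos (Subgroup.card_subgroup_dvd_card N))
        (fun h => hNt (Subgroup.card_eq_iff_eq_top N |>.1 h))
    obtain ⟨S, hSn, h1, h2, hT⟩ := ih _ hlt N rfl (hH.normal N) hNs
    have hgS := hgood S hT
    have hsimp := hgS.simple
    have hScomm : commutator N = S := hgS.commutator_eq h2
    have hchar : S.Characteristic := by
      rw [← hScomm]; infer_instance
    set S' : Subgroup G := S.map N.subtype with hS'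
    have hS'n : S'.Normal := inferInstance
    have e : S ≃* S' := S.equivMapOfInjective N.subtype (Subgroup.subtype_injective N)
    have hT' : Tgt S' := hcongr S S' e hT
    obtain ⟨h3, h4⟩ := (hgood S' hT').split hH
    exact ⟨S', hS'n, h3, h4, hT'⟩
  · push Not at hc
    -- all proper normal subgroups are solvable
    have hperf : commutator G = ⊤ := by
      by_contra h
      have h1 := hc (commutator G) inferInstance h
      apply hns
      exact Group.isSolvable_of_ker_le_range (commutator G).subtype (Abelianization.of : G →* _)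
        (by rw [Abelianization.ker_of, Subgroup.range_subtype])
    by_cases hsim : ∃ N : Subgroup G, N.Normal ∧ N ≠ ⊥ ∧ N ≠ ⊤
    · exfalso
      obtain ⟨N, hNn, hNb, hNt⟩ := hsim
      obtain ⟨p, hp, V, hVn, hVN, hVb, hVp, hVc⟩ := exists_normal_abelian N hNb (hc N hNn hNt)
      have hVs : Group.IsSolvable V := by
        have := hVp.isNilpotent
        infer_instance
      have hlt : Nat.card (G ⧸ V) < n := by
        rw [← hn, Subgroup.card_eq_card_quotient_mul_card_subgroup V]
        have h1 : 1 < Nat.card V := by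
          rw [Subgroup.one_lt_card_iff_ne_bot]; exact hVb
        have h2 : 0 < Nat.card (G ⧸ V) := Nat.card_pos
        nlinarith
      have hQs : ¬ Group.IsSolvable (G ⧸ V) := by
        intro h
        apply hns
        exact Group.isSolvable_of_ker_le_range V.subtype (QuotientGroup.mk' V)
          (by rw [QuotientGroup.ker_mk', Subgroup.range_subtype])
      obtain ⟨S, hSn, h1, h2, hT⟩ := ih _ hlt (G ⧸ V) rfl (hH.quotient V) hQs
      have hgS := hgood S hT
      have hStop : S = ⊤ := by
        by_contra hSt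
        have h3 : (S.comap (QuotientGroup.mk' V)) ≠ ⊤ := by
          intro h4
          apply hSt
          rw [← Subgroup.map_comap_eq_self_of_surjective (QuotientGroup.mk'_surjective V) S, h4,
            Subgroup.map_top_of_surjective _ (QuotientGroup.mk'_surjective V)]
        have h4 := hc (S.comap (QuotientGroup.mk' V)) inferInstance h3
        have h5 : Group.IsSolvable S := by
          have h6 : Group.IsSolvable ((S.comap (QuotientGroup.mk' V)).map (QuotientGroup.mk' V)) :=
            Group.isSolvable_of_surjective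
              (f := (QuotientGroup.mk' V).subgroupMap (S.comap (QuotientGroup.mk' V)))
              ((QuotientGroup.mk' V).subgroupMap_surjective _)
          rwa [Subgroup.map_comap_eq_self_of_surjective (QuotientGroup.mk'_surjective V) S] at h6
        have := hgS.simple
        have h6 : ∀ a b : S, a * b = b * a := IsSimpleGroup.comm_iff_isSolvable.2 h5
        exact hgS.not_comm h6
      have hgQ : Good (G ⧸ V) := by
        rw [hStop] at hgS
        exact hgS.congr Subgroup.topEquiv
      have hVz := le_center hH V hVp hVc hgQ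
      exact no_perfect_central hH hperf V hVp hVb hVz hgQ
    · push Not at hsim
      haveI : Nontrivial G := by
        by_contra h
        rw [not_nontrivial_iff_subsingleton] at h
        exact hns inferInstance
      haveI : IsSimpleGroup G := ⟨fun N hN => by
        by_contra h
        push Not at h
        exact h.2 (hsim N hN h.1)⟩
      have hT := hsimple G hns hH
      have hT' : Tgt (⊤ : Subgroup G) := hcongr G (⊤ : Subgroup G) Subgroup.topEquiv.symm hT
      obtain ⟨h3, h4⟩ := (hgood _ hT').split hH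
      exact ⟨⊤, inferInstance, h3, h4, hT'⟩

end Cfsg.Agent.H528.CP
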