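import Cfsg.Agent.H528.ClassSize

/-!
# Noncommutative Sylow `2`-subgroups

If the centralizers of all nontrivial `2`-elements are Sylow `2`-subgroups then these are commutative.
-/

set_option autoImplicit false
set_option linter.style.haveILetI false

namespace Cfsg.Agent.H528.ClassSize

open Subgroup

theorem comm_of_pow {T : Type*} [Group T] [Finite T] (hT : IsPGroup 2 T)
    (hpow : ∀ (w : T) (k : ℕ), w ^ k ≠ 1 → ∀ z : T, z * w ^ k = w ^ k * z → z * w = w * z) :
    ∀ a b : T, a * b = b * a := by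
  haveI : Fact (Nat.Prime 2) := ⟨Nat.prime_two⟩
  by_contra hnc
  push Not at hnc
  obtain ⟨a, b, hab⟩ := hnc
  have hne : Nontrivial (T ⧸ Subgroup.center T) := by
    rw [← not_subsingleton_iff_nontrivial]
    intro h
    have h1 : (QuotientGroup.mk a : T ⧸ Subgroup.center T) = 1 := Subsingleton.elim _ _
    rw [QuotientGroup.eq_one_iff, Subgroup.mem_center_iff] at h1
    exact hab (h1 b).symm
  have hQ : IsPGroup 2 (T ⧸ Subgroup.center T) := hT.to_quotient _
  haveI := hQ.center_nontrivial
  have hd : 2 ∣ Nat.card (Subgroup.center (T ⧸ Subgroup.center T)) := by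
    obtain ⟨k, hk⟩ := (hQ.to_subgroup (Subgroup.center (T ⧸ Subgroup.center T))).exists_card_eq
    rw [hk]
    refine dvd_pow_self 2 ?_
    rintro rfl
    rw [pow_zero] at hk
    have := Finite.one_lt_card (α := Subgroup.center (T ⧸ Subgroup.center T))
    omega
  obtain ⟨⟨X, hXc⟩, hXo⟩ := exists_prime_orderOf_dvd_card' 2 hd
  obtain ⟨x, rfl⟩ := QuotientGroup.mk_surjective X
  have hx2 : x ^ 2 ∈ Subgroup.center T := by
    have h1 := pow_orderOf_eq_one (⟨QuotientGroup.mk x, hXc⟩ : Subgroup.center (T ⧸ Subgroup.center T))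
    rw [hXo] at h1
    have h2 := congrArg Subtype.val h1
    rw [← QuotientGroup.eq_one_iff]
    exact h2
  have hx1 : x ∉ Subgroup.center T := by
    intro h
    have h1 : (⟨QuotientGroup.mk x, hXc⟩ : Subgroup.center (T ⧸ Subgroup.center T)) = 1 :=
      Subtype.ext ((QuotientGroup.eq_one_iff x).2 h)
    rw [h1, orderOf_one] at hXo
    omega
  have hcm : ∀ y : T, x * y * x⁻¹ * y⁻¹ ∈ Subgroup.center T := by
    intro y
    rw [Subgroup.mem_center_iff] at hXc
    have h1 := hXc (QuotientGroup.mk y)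
    rw [← QuotientGroup.eq_one_iff, QuotientGroup.mk_mul, QuotientGroup.mk_mul,
      QuotientGroup.mk_mul, QuotientGroup.mk_inv, QuotientGroup.mk_inv, ← h1]
    group
  -- `x ^ 2 = 1`
  have hxx : x ^ 2 = 1 := by
    by_contra h
    apply hx1
    rw [Subgroup.mem_center_iff]
    intro z
    exact hpow x 2 h z (Subgroup.mem_center_iff.1 hx2 z)
  have hx' : x⁻¹ = x := by
    rw [inv_eq_iff_mul_eq_one, ← pow_two, hxx]
  -- elements not commuting with `x` are involutions
  have key : ∀ y : T, x * y ≠ y * x → y ^ 2 = 1 := by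
    intro y hy
    by_contra h
    apply hy
    refine hpow y 2 h x ?_
    set c := x * y * x⁻¹ * y⁻¹ with hc
    have hcc := Subgroup.mem_center_iff.1 (hcm y)
    rw [← hc] at hcc
    have h1 : x * y = c * y * x := by rw [hc]; group
    have h2 : c * c = 1 := by
      have h3 : x * (x * y) = (x * c) * y * x := by rw [h1]; group
      rw [hcc x] at h3
      have h4 : c * x * y * x = c * (x * y) * x := by group
      rw [h4, h1] at h3
      have h5 : x * (x * y) = y := by
        rw [← mul_assoc, ← pow_two, hxx, one_mul]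
      rw [← h1, h5] at h3
      have h6 : c * (c * y * x) * x = c * c * y * (x ^ 2) := by rw [pow_two]; group
      rw [h1, h6, hxx, mul_one] at h3
      have h7 : 1 * y = c * c * y := by rw [one_mul]; exact h3
      exact (mul_right_cancel h7).symm
    calc x * y ^ 2 = (x * y) * y := by rw [pow_two]; group
      _ = c * y * x * y := by rw [h1]
      _ = c * y * (x * y) := by group
      _ = c * (y * c) * y * x := by rw [h1]; group
      _ = c * c * y ^ 2 * x := by rw [hcc y, pow_two]; group
      _ = y ^ 2 * x := by rw [h2, one_mul]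
  obtain ⟨y, hy⟩ : ∃ y : T, x * y ≠ y * x := by
    by_contra h
    push Not at h
    apply hx1
    rw [Subgroup.mem_center_iff]
    intro z
    exact (h z).symm
  have h1 := key y hy
  have h2 := key (x * y) (by
    intro h
    apply hy
    have h3 : x * (x * y) = x * (y * x) := by rw [h]; group
    exact mul_left_cancel h3)
  apply hy
  have h3 : x * y * (x * y) = 1 := by rw [← pow_two]; exact h2
  have h4 : x * y = (x * y)⁻¹ := eq_inv_of_mul_eq_one_left h3
  rw [mul_inv_rev, hx'] at h4
  have h5 : y⁻¹ = y := by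
    rw [inv_eq_iff_mul_eq_one, ← pow_two, h1]
  rwa [h5] at h4

/-- If the centralizers of nontrivial `2`-elements are Sylow `2`-subgroups then `2`-subgroups are commutative. -/
theorem comm_two {G : Type*} [Group G] [Finite G]
    (h1 : ∀ (x : G), x ≠ 1 → (∃ k, x ^ 2 ^ k = 1) →
      IsPGroup 2 (Subgroup.centralizer ({x} : Set G)))
    (h2 : ∀ (x : G), x ≠ 1 → (∃ k, x ^ 2 ^ k = 1) → ¬ 2 ∣ ci x)
    {T : Subgroup G} (hT : IsPGroup 2 T) : ∀ a ∈ T, ∀ b ∈ T, a * b = b * a := by
  haveI : Fact (Nat.Prime 2) := ⟨Nat.prime_two⟩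
  have hpow : ∀ w : G, (∃ k, w ^ 2 ^ k = 1) → ∀ k : ℕ, w ^ k ≠ 1 →
      Subgroup.centralizer ({w ^ k} : Set G) = Subgroup.centralizer ({w} : Set G) := by
    intro w hw k hk
    have hw1 : w ≠ 1 := by
      rintro rfl
      rw [one_pow] at hk
      exact hk rfl
    have hwk : ∃ j, (w ^ k) ^ 2 ^ j = 1 := by
      obtain ⟨j, hj⟩ := hw
      exact ⟨j, by rw [← pow_mul, mul_comm, pow_mul, hj, one_pow]⟩
    have hle : Subgroup.centralizer ({w} : Set G) ≤ Subgroup.centralizer ({w ^ k} : Set G) := by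
      intro z hz
      rw [mem_cent] at hz ⊢
      exact (show Commute z w from hz).pow_right k
    let P : Sylow 2 G := (h1 w hw1 hw).toSylow (h2 w hw1 hw)
    exact P.is_maximal' (h1 _ hk hwk) hle
  have h3 := comm_of_pow hT (by
    rintro ⟨w, hw⟩ k hk ⟨z, hz⟩ hzw
    have hw' : ∃ k, w ^ 2 ^ k = 1 := by
      obtain ⟨j, hj⟩ := hT ⟨w, hw⟩
      exact ⟨j, congrArg Subtype.val hj⟩
    have hk' : w ^ k ≠ 1 := fun h => hk (Subtype.ext h)
    have h4 : z ∈ Subgroup.centralizer ({w ^ k} : Set G) := by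
      rw [mem_cent]
      exact congrArg Subtype.val hzw
    rw [hpow w hw' k hk', mem_cent] at h4
    exact Subtype.ext h4)
  intro a ha b hb
  exact congrArg Subtype.val (h3 ⟨a, ha⟩ ⟨b, hb⟩)

end Cfsg.Agent.H528.ClassSize
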