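import Cfsg.Agent.H528.NonAbTwo
import Cfsg.Agent.H528.Counting

/-!
# Simple groups all of whose elements have prime power order and small class sizes: the Sylow `2`-subgroups are commutative
-/

set_option autoImplicit false
set_option linter.style.haveILetI false

namespace Cfsg.Agent.H528.ClassSize

open Subgroup

/-- Every element has prime power order. -/
def PP (G : Type*) [Group G] : Prop := ∀ x : G, ∃ (v m : ℕ), v.Prime ∧ x ^ v ^ m = 1

theorem eq_one_of_coprime {G : Type*} [Group G] {x : G} {a b : ℕ} (hab : a.Coprime b)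
    (ha : x ^ a = 1) (hb : x ^ b = 1) : x = 1 := by
  have h1 := orderOf_dvd_of_pow_eq_one ha
  have h2 := orderOf_dvd_of_pow_eq_one hb
  have h3 : orderOf x ∣ 1 := by
    have := Nat.dvd_gcd h1 h2
    rwa [hab] at this
  exact orderOf_eq_one_iff.1 (Nat.dvd_one.1 h3)

theorem PP.cent {G : Type*} [Group G] (h : PP G) {x : G} (hx1 : x ≠ 1) {k : ℕ}
    (hx : x ^ 2 ^ k = 1) : IsPGroup 2 (Subgroup.centralizer ({x} : Set G)) := by
  rintro ⟨y, hy⟩
  rw [mem_cent] at hy
  have hc : Commute x y := hy.symm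
  suffices ∃ k, y ^ 2 ^ k = 1 by
    obtain ⟨k, hk⟩ := this
    exact ⟨k, Subtype.ext hk⟩
  by_cases hy1 : y = 1
  · exact ⟨0, by rw [hy1, one_pow]⟩
  obtain ⟨v, m, hv, hvm⟩ := h y
  by_cases hv2 : v = 2
  · subst hv2; exact ⟨m, hvm⟩
  exfalso
  have hcop : (2 ^ k).Coprime (v ^ m) :=
    Nat.Coprime.pow _ _ ((Nat.coprime_primes Nat.prime_two hv).2 (Ne.symm hv2))
  obtain ⟨u, n, hu, hun⟩ := h (x * y)
  rw [hc.mul_pow] at hun
  have h1 : x ^ u ^ n = (y ^ u ^ n)⁻¹ := eq_inv_of_mul_eq_one_left hun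
  have h2 : x ^ u ^ n = 1 := by
    apply eq_one_of_coprime hcop
    · rw [← pow_mul, mul_comm, pow_mul, hx, one_pow]
    · rw [h1, inv_pow, ← pow_mul, mul_comm, pow_mul, hvm, one_pow, inv_one]
  have h3 : y ^ u ^ n = 1 := by
    rw [h2] at h1
    exact inv_eq_one.1 h1.symm
  rcases eq_or_ne u 2 with rfl | hu2
  · exact hy1 (eq_one_of_coprime (Nat.Coprime.pow _ _
      ((Nat.coprime_primes Nat.prime_two hv).2 (Ne.symm hv2))) h3 hvm)
  · exact hx1 (eq_one_of_coprime (Nat.Coprime.pow _ _
      ((Nat.coprime_primes hu Nat.prime_two).2 hu2)) h2 hx)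

/-- The Sylow `2`-subgroups are commutative. -/
theorem comm_two_of_pp {G : Type*} [Group G] [Finite G] [IsSimpleGroup G]
    (hns : ¬ Group.IsSolvable G) (hH : Hyp G) (hPP : PP G) (hd2 : 2 ∣ Nat.card G)
    {T : Subgroup G} (hT : IsPGroup 2 T) : ∀ a ∈ T, ∀ b ∈ T, a * b = b * a := by
  have hπ := three_primes hns hH
  have h2 : (2 : ℕ) ∈ (Nat.card G).primeFactors :=
    Nat.mem_primeFactors.2 ⟨Nat.prime_two, hd2, Nat.card_pos.ne'⟩
  obtain ⟨r, s, hrs, hr⟩ : ∃ r s, r ≠ s ∧ (Nat.card G).primeFactors.erase 2 = {r, s} := by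
    rw [← Finset.card_eq_two, Finset.card_erase_of_mem h2, hπ]
  have hr1 : r ∈ (Nat.card G).primeFactors.erase 2 := by rw [hr]; simp
  have hs1 : s ∈ (Nat.card G).primeFactors.erase 2 := by rw [hr]; simp
  refine comm_two (fun x hx1 hk => ?_) (fun x hx1 hk h2x => ?_) hT
  · obtain ⟨k, hk⟩ := hk
    exact hPP.cent hx1 hk
  · obtain ⟨k, hk⟩ := hk
    have hC := hPP.cent hx1 hk
    have key : ∀ v ∈ (Nat.card G).primeFactors.erase 2, v ∣ ci x := by
      intro v hv
      obtain ⟨hv2, hv⟩ := Finset.mem_erase.1 hv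
      have hvp := Nat.prime_of_mem_primeFactors hv
      have hvd := Nat.dvd_of_mem_primeFactors hv
      haveI : Fact (Nat.Prime 2) := ⟨Nat.prime_two⟩
      rw [← Subgroup.card_mul_index (Subgroup.centralizer ({x} : Set G)), hvp.dvd_mul] at hvd
      rcases hvd with h | h
      · obtain ⟨j, hj⟩ := hC.exists_card_eq
        rw [hj] at h
        exact absurd ((Nat.prime_dvd_prime_iff_eq hvp Nat.prime_two).1
          (hvp.dvd_of_dvd_pow h)) hv2
      · exact h
    exact hH.not_three x Nat.prime_two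
      (Nat.prime_of_mem_primeFactors (Finset.mem_of_mem_erase hr1))
      (Nat.prime_of_mem_primeFactors (Finset.mem_of_mem_erase hs1))
      (Finset.ne_of_mem_erase hr1).symm (Finset.ne_of_mem_erase hs1).symm hrs h2x (key r hr1)
      (key s hs1)

/-- The commutator criterion: two `p`-elements whose commutator commutes with both generate a `p`-group. -/
theorem isPGroup_of_class_two {G : Type*} [Group G] {p : ℕ} {a b c : G}
    (ha : ∃ k, a ^ p ^ k = 1) (hb : ∃ k, b ^ p ^ k = 1) (hab : a * b = c * (b * a))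
    (hca : Commute c a) (hcb : Commute c b) (hc : ∃ k, c ^ p ^ k = 1) [Fact p.Prime] :
    ∃ V : Subgroup G, IsPGroup p V ∧ a ∈ V ∧ b ∈ V := by
  have hz : ∀ x : G, (∃ k, x ^ p ^ k = 1) → IsPGroup p (Subgroup.zpowers x) := by
    rintro x ⟨k, hk⟩
    rintro ⟨y, n, rfl⟩
    refine ⟨k, Subtype.ext ?_⟩
    change (x ^ n) ^ p ^ k = 1
    rw [← zpow_natCast, ← zpow_mul, mul_comm, zpow_mul, zpow_natCast, hk, one_zpow]
  -- `⟨c⟩ ⟨a⟩`
  have h1 : IsPGroup p (Subgroup.zpowers c ⊔ Subgroup.zpowers a : Subgroup G) := by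
    refine IsPGroup.to_sup_of_normal_left' (hz c hc) (hz a ha) ?_
    rw [Subgroup.zpowers_le, Subgroup.mem_normalizer_iff]
    intro h
    constructor
    · rintro ⟨n, rfl⟩
      refine ⟨n, ?_⟩
      rw [← (hca.zpow_left n).eq, mul_inv_cancel_right]
    · rintro ⟨n, hn⟩
      refine ⟨n, ?_⟩
      have h2 : h = a⁻¹ * (a * h * a⁻¹) * a := by group
      rw [h2, ← hn]
      change c ^ n = a⁻¹ * c ^ n * a
      rw [mul_assoc, (hca.zpow_left n).eq, inv_mul_cancel_left]
  -- `b` normalizes it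
  have h2 : Subgroup.zpowers b ≤
      Subgroup.normalizer ((Subgroup.zpowers c ⊔ Subgroup.zpowers a : Subgroup G) : Set G) := by
    rw [Subgroup.zpowers_le]
    have e1 : (Subgroup.zpowers c ⊔ Subgroup.zpowers a : Subgroup G) =
        Subgroup.closure {c, a} := by
      rw [Subgroup.zpowers_eq_closure, Subgroup.zpowers_eq_closure, ← Subgroup.closure_union]
      rfl
    rw [e1]
    have hcm : c ∈ Subgroup.closure {c, a} := Subgroup.subset_closure (by simp)
    have ham : a ∈ Subgroup.closure {c, a} := Subgroup.subset_closure (by simp)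
    have hc1 : b * c * b⁻¹ = c := by rw [← hcb.eq, mul_inv_cancel_right]
    have ha1 : b * a * b⁻¹ = c⁻¹ * a := by
      have : b * a = c⁻¹ * (a * b) := by rw [hab, inv_mul_cancel_left]
      rw [this]; group
    have hc2 : b⁻¹ * c * b = c := by
      rw [mul_assoc, hcb.eq, inv_mul_cancel_left]
    have ha2 : b⁻¹ * a * b = c * a := by
      have : b⁻¹ * (a * b) = b⁻¹ * (c * (b * a)) := by rw [hab]
      rw [← mul_assoc] at this
      rw [this]
      calc b⁻¹ * (c * (b * a)) = (b⁻¹ * c * b) * a := by group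
        _ = c * a := by rw [hc2]
    rw [Subgroup.mem_normalizer_iff]
    intro h
    constructor
    · intro hh
      have : (Subgroup.closure {c, a} : Subgroup G).map (MulAut.conj b).toMonoidHom ≤
          Subgroup.closure {c, a} := by
        rw [MonoidHom.map_closure, Subgroup.closure_le]
        rintro _ ⟨y, hy, rfl⟩
        simp only [Set.mem_insert_iff, Set.mem_singleton_iff] at hy
        rcases hy with rfl | rfl
        · simpa [hc1] using hcm
        · simpa [ha1] using (Subgroup.mul_mem _ (Subgroup.inv_mem _ hcm) ham)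
      exact this ⟨h, hh, rfl⟩
    · intro hh
      have : (Subgroup.closure {c, a} : Subgroup G).map (MulAut.conj b⁻¹).toMonoidHom ≤
          Subgroup.closure {c, a} := by
        rw [MonoidHom.map_closure, Subgroup.closure_le]
        rintro _ ⟨y, hy, rfl⟩
        simp only [Set.mem_insert_iff, Set.mem_singleton_iff] at hy
        rcases hy with rfl | rfl
        · simpa [hc2] using hcm
        · simpa [ha2] using (Subgroup.mul_mem _ hcm ham)
      have h3 := this ⟨_, hh, rfl⟩
      have h4 : (MulAut.conj b⁻¹).toMonoidHom (b * h * b⁻¹) = h := by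
        simp [MulAut.conj_apply, mul_assoc]
      rwa [h4] at h3
  refine ⟨(Subgroup.zpowers c ⊔ Subgroup.zpowers a) ⊔ Subgroup.zpowers b,
    IsPGroup.to_sup_of_normal_left' h1 (hz b hb) h2, ?_, ?_⟩
  · exact Subgroup.mem_sup_left (Subgroup.mem_sup_right (Subgroup.mem_zpowers a))
  · exact Subgroup.mem_sup_right (Subgroup.mem_zpowers b)

end Cfsg.Agent.H528.ClassSize
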